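import Cfsg.Agent.Lib.ClassSize
import Cfsg.Agent.Invol.Counting
import Cfsg.Agent.Cores.Fitting

/-!
# Real class sizes

Elementary facts on the class sizes of real elements: a real element which is not an involution
has even class size, two involutions whose class sizes are coprime and greater than one cannot
both have odd class size, and a solvable group generated by its 2-elements has no Sylow
`r`-subgroup, `r` odd, normalising a Sylow 2-subgroup.
-/

set_option autoImplicit false

namespace Cfsg.Agent.RealSizes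

open Subgroup

variable {G : Type*} [Group G]

/-- A real element whose square is non-trivial has even class size. -/
theorem two_dvd_index_of_real {x : G} (h : IsConj x x⁻¹) (hx : x ^ 2 ≠ 1) :
    2 ∣ (centralizer ({x} : Set G)).index := by
  obtain ⟨g, hg⟩ := isConj_iff.1 h
  set K := centralizer ({x} : Set G) with hK
  have hKx : ∀ k : G, k ∈ K ↔ k * x * k⁻¹ = x := fun k => by
    rw [hK, mem_centralizer_singleton_iff, mul_inv_eq_iff_eq_mul]
  let M : Subgroup G :=
    { carrier := {k | k * x * k⁻¹ = x ∨ k * x * k⁻¹ = x⁻¹}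
      mul_mem' := fun {a b} ha hb => by
        have e : a * b * x * (a * b)⁻¹ = a * (b * x * b⁻¹) * a⁻¹ := by group
        have e' : a * x⁻¹ * a⁻¹ = (a * x * a⁻¹)⁻¹ := by group
        simp only [Set.mem_setOf_eq] at ha hb ⊢
        rw [e]
        rcases hb with hb | hb <;> rw [hb]
        · exact ha
        · rw [e']
          rcases ha with ha | ha <;> rw [ha]
          · exact Or.inr rfl
          · exact Or.inl (inv_inv x)
      one_mem' := Or.inl (by group)
      inv_mem' := fun {a} ha => by
        simp only [Set.mem_setOf_eq, inv_inv] at ha ⊢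
        rcases ha with ha | ha
        · left
          calc a⁻¹ * x * a = a⁻¹ * (a * x * a⁻¹) * a := by rw [ha]
            _ = x := by group
        · right
          calc a⁻¹ * x * a = a⁻¹ * (a * x * a⁻¹)⁻¹ * a := by rw [ha, inv_inv]
            _ = x⁻¹ := by group }
  have hKM : K ≤ M := fun k hk => Or.inl ((hKx k).1 hk)
  have hne : x⁻¹ ≠ x := fun e => hx (by
    rw [pow_two]
    exact mul_eq_one_iff_eq_inv.2 e.symm)
  have hidx : (K.subgroupOf M).index = 2 := by
    rw [index_eq_two_iff]
    refine ⟨⟨g, Or.inr hg⟩, fun b => ?_⟩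
    simp only [mem_subgroupOf, Subgroup.coe_mul, hKx]
    have e : (b : G) * g * x * ((b : G) * g)⁻¹ = (b : G) * x⁻¹ * (b : G)⁻¹ := by
      rw [← hg]; group
    have e' : (b : G) * x⁻¹ * (b : G)⁻¹ = ((b : G) * x * (b : G)⁻¹)⁻¹ := by group
    rw [e, e']
    rcases b.2 with hb | hb <;> rw [hb]
    · exact Or.inr ⟨rfl, hne⟩
    · exact Or.inl ⟨inv_inv x, hne⟩
  exact ⟨M.index, by rw [← relIndex_mul_index hKM]; exact congrArg (· * M.index) hidx⟩

/-- Two subgroups of coprime index have product the whole group. -/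
theorem exists_mul_of_coprime [Finite G] {A B : Subgroup G} (h : A.index.Coprime B.index) (g : G) :
    ∃ a ∈ A, ∃ b ∈ B, g = a * b := by
  have h1 : (A ⊓ B).index = B.relIndex A * A.index := by
    rw [← relIndex_mul_index (inf_le_left : A ⊓ B ≤ A), inf_relIndex_left]
  have h2 : (A ⊓ B).index = A.relIndex B * B.index := by
    rw [← relIndex_mul_index (inf_le_right : A ⊓ B ≤ B), inf_relIndex_right]
  have hd : B.index ∣ B.relIndex A :=
    h.symm.dvd_of_dvd_mul_right ⟨A.relIndex B, by rw [← h1, h2, mul_comm]⟩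
  let f : A ⧸ B.subgroupOf A → G ⧸ B :=
    Quotient.lift (fun a : A => QuotientGroup.mk (s := B) (a : G)) fun a a' haa => by
      rw [QuotientGroup.eq]
      exact mem_subgroupOf.1 (QuotientGroup.leftRel_apply.1 haa)
  have hinj : Function.Injective f := fun p q => by
    induction p using QuotientGroup.induction_on with
    | H a =>
      induction q using QuotientGroup.induction_on with
      | H a' =>
        intro e
        rw [QuotientGroup.eq, mem_subgroupOf]
        exact QuotientGroup.eq.1 e
  have hle1 : Nat.card (A ⧸ B.subgroupOf A) ≤ Nat.card (G ⧸ B) := Nat.card_le_card_of_injective f hinj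
  have hle2 : Nat.card (G ⧸ B) ≤ Nat.card (A ⧸ B.subgroupOf A) :=
    Nat.le_of_dvd (Nat.pos_of_ne_zero (B.subgroupOf A).index_ne_zero_of_finite) hd
  have hbij := (Nat.bijective_iff_injective_and_card f).2 ⟨hinj, le_antisymm hle1 hle2⟩
  obtain ⟨p, hp⟩ := hbij.2 (QuotientGroup.mk g)
  induction p using QuotientGroup.induction_on with
  | H a => exact ⟨a, a.2, (a : G)⁻¹ * g, QuotientGroup.eq.1 hp, by group⟩

/-- For commuting involutions with coprime class sizes the class of the product is as large as
the class of neither factor, when all these sizes are odd and the other one is non-trivial. -/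
theorem not_dvd_of_commuting [Finite G] {u v : G}
    (hinv : ∀ v' : G, IsConj v v' → Commute v v' ∧ v' ^ 2 = 1)
    (hco : (centralizer ({u} : Set G)).index.Coprime (centralizer ({v} : Set G)).index)
    (hodd : Odd (centralizer ({u} : Set G)).index) (hv : 1 < (centralizer ({v} : Set G)).index) :
    ¬ (centralizer ({u * v} : Set G)).index ≤ (centralizer ({u} : Set G)).index := by
  classical
  intro hle
  have hsub : ∀ u' v', IsConj u u' → IsConj v v' → IsConj (u * v) (u' * v') := by
    intro u' v' hu' hv'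
    obtain ⟨k, rfl⟩ := isConj_iff.1 hv'
    obtain ⟨g, rfl⟩ := isConj_iff.1 hu'
    obtain ⟨a, ha, b, hb, e⟩ := exists_mul_of_coprime hco.symm (k⁻¹ * g)
    rw [mem_centralizer_singleton_iff] at ha hb
    refine isConj_iff.2 ⟨k * a, ?_⟩
    have e' : g = k * (a * b) := by rw [← e]; group
    subst e'
    calc k * a * (u * v) * (k * a)⁻¹
        = k * (a * (b * u * b⁻¹) * a⁻¹) * k⁻¹ * (k * (a * v * a⁻¹) * k⁻¹) := by
          rw [show b * u * b⁻¹ = u by rw [hb]; group]
          group
      _ = k * (a * b) * u * (k * (a * b))⁻¹ * (k * v * k⁻¹) := by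
          rw [show a * v * a⁻¹ = v by rw [ha]; group]
          group
  have himg : ∀ v', IsConj v v' → (· * v') '' conjugatesOf u = conjugatesOf (u * v) := by
    intro v' hv'
    refine Set.eq_of_subset_of_ncard_le ?_ ?_ (Set.toFinite _)
    · rintro _ ⟨u', hu', rfl⟩
      exact hsub u' v' hu' hv'
    · rw [Set.ncard_image_of_injective _ (mul_left_injective v'), ClassSize.ncard_conjugatesOf,
        ClassSize.ncard_conjugatesOf]
      exact hle
  obtain ⟨g, hg⟩ : ∃ g, g ∉ centralizer ({v} : Set G) := by
    by_contra! h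
    rw [(Subgroup.index_eq_one).2 (eq_top_iff.2 fun g _ => h g)] at hv
    omega
  set v' := g * v * g⁻¹ with hv'
  have hne : v' ≠ v := fun e => hg (mem_centralizer_singleton_iff.2 (mul_inv_eq_iff_eq_mul.1 e))
  have hc : IsConj v v' := isConj_iff.2 ⟨g, rfl⟩
  set w := v * v' with hw
  have hv2 : v * v = 1 := by rw [← pow_two]; exact (hinv v (IsConj.refl v)).2
  have hv'2 : v' * v' = 1 := by rw [← pow_two]; exact (hinv v' hc).2
  have hw1 : w ≠ 1 := fun e => hne (by
    rw [hw, mul_eq_one_iff_inv_eq, inv_eq_of_mul_eq_one_right hv2] at e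
    exact e.symm)
  have hw2 : w * w = 1 := by
    calc w * w = v * (v' * v) * v' := by rw [hw]; group
      _ = (v * v) * (v' * v') := by rw [← (hinv v' hc).1.eq]; group
      _ = 1 := by rw [hv2, hv'2, one_mul]
  -- right multiplication by `w` is a fixed-point-free involution on the class of `u`
  have hmaps : ∀ u' ∈ conjugatesOf u, u' * w ∈ conjugatesOf u := by
    intro u' hu'
    have : u' * v ∈ (· * v') '' conjugatesOf u := by
      rw [himg v' hc, ← himg v (IsConj.refl v)]
      exact ⟨u', hu', rfl⟩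
    obtain ⟨u'', hu'', e⟩ := this
    have : u' * w = u'' := by
      rw [hw, ← mul_assoc, ← (show u'' * v' = u' * v from e), mul_assoc, hv'2, mul_one]
    rwa [this]
  have heven : Even (conjugatesOf u).ncard := by
    let σ : Equiv.Perm (conjugatesOf u) :=
      Function.Involutive.toPerm (fun u' => ⟨u'.1 * w, hmaps u'.1 u'.2⟩)
        (fun u' => Subtype.ext (by simp [mul_assoc, hw2]))
    haveI := Fintype.ofFinite (conjugatesOf u)
    rw [← Nat.card_coe_set_eq, even_iff_two_dvd]
    by_contra hnd
    obtain ⟨a, ha⟩ := Equiv.Perm.exists_fixed_point_of_prime (p := 2) (n := 1) (hp := ⟨Nat.prime_two⟩)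
      (σ := σ) (by rwa [← Nat.card_eq_fintype_card]) (by
        ext u'
        change u'.1 * w * w = u'.1
        rw [mul_assoc, hw2, mul_one])
    refine hw1 (mul_eq_left.1 (?_ : a.1 * w = a.1))
    exact congrArg Subtype.val ha
  rw [ClassSize.ncard_conjugatesOf] at heven
  exact (Nat.not_even_iff_odd.2 hodd) heven

universe u

/-- A solvable group generated by its 2-elements has order prime to any odd prime `r` for which
each Sylow `r`-subgroup normalises a Sylow 2-subgroup. -/
theorem not_dvd_card_of_normalizes (r : ℕ) [Fact r.Prime] (hr : r ≠ 2) :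
    ∀ (n : ℕ) (H : Type u) [Group H] [Finite H], Nat.card H = n → Group.IsSolvable H →
      Subgroup.closure {g : H | ∃ k : ℕ, orderOf g = 2 ^ k} = ⊤ →
      (∀ R : Sylow r H, ∃ P : Sylow 2 H, (R : Subgroup H) ≤ normalizer ((P : Subgroup H) : Set H)) →
      ¬ r ∣ Nat.card H := by
  intro n
  induction n using Nat.strong_induction_on with
  | _ n ih =>
    intro H _ _ hn hsol hgen hnorm hdvd
    haveI : Fact (Nat.Prime 2) := ⟨Nat.prime_two⟩
    haveI : Nontrivial H := by
      rw [← Finite.one_lt_card_iff_nontrivial]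
      exact lt_of_lt_of_le (Fact.out : r.Prime).one_lt (Nat.le_of_dvd Nat.card_pos hdvd)
    haveI := hsol
    obtain ⟨q, hq, hN⟩ := Cfsg.Agent.Cores.exists_pCore_ne_bot (G := H)
    haveI : Fact q.Prime := ⟨hq⟩
    set N := Cfsg.pCore q H with hNdef
    have hNp : IsPGroup q N := Cfsg.Agent.Cores.pCore_isPGroup
    haveI : N.Normal := inferInstanceAs (Cfsg.pCore q H).Normal
    have hsurj := QuotientGroup.mk'_surjective N
    have hlt : Nat.card (H ⧸ N) < n := by
      rw [← hn, card_eq_card_quotient_mul_card_subgroup N]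
      exact lt_mul_of_one_lt_right Nat.card_pos (N.one_lt_card_iff_ne_bot.2 hN)
    have hgen' : Subgroup.closure {g : H ⧸ N | ∃ k : ℕ, orderOf g = 2 ^ k} = ⊤ := by
      rw [eq_top_iff, ← MonoidHom.range_eq_top.2 hsurj, MonoidHom.range_eq_map, ← hgen,
        MonoidHom.map_closure, closure_le]
      rintro _ ⟨g, ⟨k, hk⟩, rfl⟩
      obtain ⟨j, -, hj⟩ := (Nat.dvd_prime_pow Nat.prime_two).1 (hk ▸ orderOf_map_dvd (QuotientGroup.mk' N) g)
      exact subset_closure ⟨j, hj⟩
    have hq' : ¬ r ∣ Nat.card (H ⧸ N) := by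
      refine ih _ hlt (H ⧸ N) rfl (Group.isSolvable_of_surjective hsurj) hgen' fun R => ?_
      obtain ⟨R₀, rfl⟩ := Sylow.mapSurjective_surjective hsurj r R
      obtain ⟨P, hP⟩ := hnorm R₀
      exact ⟨P.mapSurjective hsurj, (Subgroup.map_mono hP).trans (le_normalizer_map _)⟩
    have hqr : q = r := by
      by_contra hne
      obtain ⟨j, hj⟩ := hNp.exists_card_eq
      rw [card_eq_card_quotient_mul_card_subgroup N, hj,
        (Fact.out : r.Prime).dvd_mul] at hdvd
      rcases hdvd with h | h
      · exact hq' h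
      · exact hne (((Nat.prime_dvd_prime_iff_eq (Fact.out : r.Prime) hq).1
          ((Fact.out : r.Prime).dvd_of_dvd_pow h)).symm)
    subst hqr
    obtain ⟨j, hj⟩ := hNp.exists_card_eq
    have hcop : (Nat.card N).Coprime N.index := by
      rw [hj]
      exact Nat.Coprime.pow_left j ((Fact.out : q.Prime).coprime_iff_not_dvd.2 hq')
    let R : Sylow q H := hNp.toSylow hq'
    obtain ⟨P, hP⟩ := hnorm R
    have hcomm : ∀ a ∈ N, ∀ b ∈ (P : Subgroup H), a * b = b * a := by
      intro a ha b hb
      have hd : a * b * a⁻¹ * b⁻¹ ∈ N ⊓ (P : Subgroup H) := ⟨by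
        rw [show a * b * a⁻¹ * b⁻¹ = a * (b * a⁻¹ * b⁻¹) by group]
        exact N.mul_mem ha (Normal.conj_mem inferInstance _ (N.inv_mem ha) _), by
        exact (P : Subgroup H).mul_mem ((Subgroup.mem_normalizer_iff.1 (hP ha) b).1 hb)
          ((P : Subgroup H).inv_mem hb)⟩
      have hbot : N ⊓ (P : Subgroup H) = ⊥ :=
        (IsPGroup.disjoint_of_ne q 2 hr N (P : Subgroup H) hNp P.isPGroup').eq_bot
      rw [hbot, Subgroup.mem_bot, mul_inv_eq_one, mul_inv_eq_iff_eq_mul] at hd
      exact hd
    have hcen : N ≤ Subgroup.center H := by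
      intro a ha
      rw [mem_center_iff]
      suffices ⊤ ≤ centralizer ({a} : Set H) from fun g =>
        mem_centralizer_singleton_iff.1 (this (mem_top g))
      rw [← hgen, closure_le]
      rintro g ⟨k, hk⟩
      obtain ⟨Q, hQ⟩ := (IsPGroup.of_card (G := zpowers g) (n := k) (by rw [Nat.card_zpowers, hk])).exists_le_sylow
      obtain ⟨c, rfl⟩ := MulAction.exists_smul_eq H P Q
      have hg := hQ (mem_zpowers g)
      rw [Sylow.coe_subgroup_smul, mem_pointwise_smul_iff_inv_smul_mem] at hg
      have hg' : c⁻¹ * g * c ∈ (P : Subgroup H) := by simpa [MulAut.smul_def, mul_assoc] using hg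
      have h1 := hcomm (c⁻¹ * a * c) (by simpa using Normal.conj_mem inferInstance a ha c⁻¹) _ hg'
      refine mem_centralizer_singleton_iff.2 ?_
      calc g * a = c * ((c⁻¹ * g * c) * (c⁻¹ * a * c)) * c⁻¹ := by group
        _ = c * ((c⁻¹ * a * c) * (c⁻¹ * g * c)) * c⁻¹ := by rw [h1]
        _ = a * g := by group
    obtain ⟨K, hK⟩ := exists_right_complement'_of_coprime hcop
    haveI hKn : K.Normal := by
      refine ⟨fun k hk g => ?_⟩
      obtain ⟨⟨⟨a, ha⟩, ⟨b, hb⟩⟩, hab⟩ := hK.2 g
      simp only at hab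
      rw [← hab, show a * b * k * (a * b)⁻¹ = a * (b * k * b⁻¹) * a⁻¹ by group,
        ← mem_center_iff.1 (hcen ha) (b * k * b⁻¹), mul_assoc, mul_inv_cancel, mul_one]
      exact K.mul_mem (K.mul_mem hb hk) (K.inv_mem hb)
    have hKi : K.index = q ^ j := by
      rw [← hj]; exact hK.index_eq_card
    have hKtop : K = ⊤ := by
      rw [eq_top_iff, ← hgen, closure_le]
      rintro g ⟨k, hk⟩
      have h1 : g ^ (q ^ j) ∈ K := hKi ▸ pow_index_mem K g
      have h2 : (orderOf g).Coprime (q ^ j) :=
        hk ▸ Nat.Coprime.pow k j ((Nat.coprime_primes Nat.prime_two (Fact.out : q.Prime)).2 hr.symm)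
      obtain ⟨i, hi⟩ := exists_pow_eq_self_of_coprime h2.symm
      exact hi ▸ K.pow_mem h1 i
    apply hN
    rw [← Subgroup.card_eq_one, hj, ← hKi, hKtop, index_top]

end Cfsg.Agent.RealSizes
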